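import Mathlib
import Cfsg.Agent.Lib.Helper3.Transfer

set_option autoImplicit false

namespace Cfsg.Agent.Lib.Helper3

open scoped IsMulCommutative

/-- conjugation by `g` on an abelian normal subgroup only depends on the coset `gA`. -/
theorem conjNormal_out_eq {G : Type*} [Group G] (A : Subgroup G) [A.Normal]
    (hc : IsMulCommutative A) (g : G) (a : A) :
    MulAut.conjNormal ((QuotientGroup.mk g : G ⧸ A).out) a = MulAut.conjNormal g a := by
  obtain ⟨h, hh⟩ := QuotientGroup.mk_out_eq_mul A g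
  rw [hh, map_mul, MulAut.mul_apply, MulAut.conjNormal_val]
  congr 1
  simp only [MulAut.conj_apply]
  rw [mul_comm h a, mul_inv_cancel_right]

/-- the averaging map -/
noncomputable def avgMap {G : Type*} [Group G] [Finite G] (A : Subgroup G) [A.Normal]
    (hc : IsMulCommutative A) (a : A) : A :=
  haveI : Fintype (G ⧸ A) := Fintype.ofFinite _
  ∏ q : G ⧸ A, MulAut.conjNormal q.out a

theorem avgMap_fixed {G : Type*} [Group G] [Finite G] (A : Subgroup G) [A.Normal]
    (hc : IsMulCommutative A) (a : A) (g : G) :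
    MulAut.conjNormal g (avgMap A hc a) = avgMap A hc a := by
  unfold avgMap
  rw [map_prod]
  have h1 : ∀ q : G ⧸ A, MulAut.conjNormal g (MulAut.conjNormal q.out a)
      = MulAut.conjNormal ((g • q).out) a := by
    intro q
    rw [← MulAut.mul_apply, ← map_mul]
    have : g • q = (QuotientGroup.mk (g * q.out) : G ⧸ A) := by
      conv_lhs => rw [← QuotientGroup.out_eq' q]
      rfl
    rw [this, conjNormal_out_eq A hc]
  simp_rw [h1]
  exact @Equiv.prod_comp _ _ _ (Fintype.ofFinite _) (Fintype.ofFinite _) _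
    (MulAction.toPerm g : Equiv.Perm (G ⧸ A)) (fun q => MulAut.conjNormal q.out a)

theorem avgMap_mem_center {G : Type*} [Group G] [Finite G] (A : Subgroup G) [A.Normal]
    (hc : IsMulCommutative A) (a : A) :
    ((avgMap A hc a : A) : G) ∈ Subgroup.center G := by
  rw [Subgroup.mem_center_iff]
  intro g
  have h := congrArg (Subtype.val) (avgMap_fixed A hc a g)
  rw [MulAut.conjNormal_apply] at h
  exact mul_inv_eq_iff_eq_mul.mp h

theorem avgMap_eq {G : Type*} [Group G] [Finite G] (A : Subgroup G) [A.Normal]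
    (hc : IsMulCommutative A) (a : A) :
    ∃ c : A, (c : G) ∈ ⁅A, (⊤ : Subgroup G)⁆ ∧ avgMap A hc a = c * a ^ A.index := by
  letI : Fintype (G ⧸ A) := Fintype.ofFinite _
  refine ⟨∏ q : G ⧸ A, (MulAut.conjNormal q.out a * a⁻¹), ?_, ?_⟩
  · have : (∏ q : G ⧸ A, (MulAut.conjNormal q.out a * a⁻¹)) ∈
        (⁅A, (⊤ : Subgroup G)⁆).subgroupOf A := by
      apply Subgroup.prod_mem
      intro q _
      rw [Subgroup.mem_subgroupOf]
      push_cast
      rw [MulAut.conjNormal_apply, Subgroup.commutator_comm]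
      exact Subgroup.commutator_mem_commutator (Subgroup.mem_top q.out) a.2
    exact this
  · unfold avgMap
    rw [Finset.prod_mul_distrib]
    simp only [Finset.prod_const, Finset.card_univ]
    rw [Subgroup.index, Nat.card_eq_fintype_card, inv_pow, inv_mul_cancel_right]

/-- an abelian normal Hall subgroup is generated by `[A,G]` and `Z(G) ∩ A`. -/
theorem abelian_normal_hall_le_sup {G : Type*} [Group G] [Finite G] (A : Subgroup G) [A.Normal]
    (hc : IsMulCommutative A) (hHall : Nat.Coprime (Nat.card A) A.index) :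
    A ≤ ⁅A, (⊤ : Subgroup G)⁆ ⊔ (Subgroup.center G ⊓ A) := by
  intro x hx
  obtain ⟨b, hb⟩ := (powCoprime hHall).surjective (⟨x, hx⟩ : A)
  rw [powCoprime_apply] at hb
  obtain ⟨c, hcm, hce⟩ := avgMap_eq A hc b
  have hx' : x = (c : G)⁻¹ * (avgMap A hc b : A) := by
    rw [hce, hb]
    simp
  rw [hx']
  exact Subgroup.mul_mem_sup (Subgroup.inv_mem _ hcm) ⟨avgMap_mem_center A hc b, (avgMap A hc b).2⟩

theorem abelian_normal_hall_split {G : Type*} [Group G] [Finite G] (A : Subgroup G) [A.Normal]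
    (hc : IsMulCommutative A) (hHall : Nat.Coprime (Nat.card A) A.index) :
    ⁅A, (⊤ : Subgroup G)⁆ = commutator G ⊓ A ∧
      (commutator G ⊓ A) ⊓ (Subgroup.center G ⊓ A) = ⊥ ∧
      (commutator G ⊓ A) ⊔ (Subgroup.center G ⊓ A) = A := by
  have h0 := abelian_hall_inf_commutator_inf_center A hc hHall
  have h1 : ⁅A, (⊤ : Subgroup G)⁆ ≤ commutator G ⊓ A := by
    refine le_inf ?_ ?_
    · exact Subgroup.commutator_mono le_top le_rfl
    · exact Subgroup.commutator_le_left A ⊤
  have h2 := abelian_normal_hall_le_sup A hc hHall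
  have h3 : commutator G ⊓ A ≤ ⁅A, (⊤ : Subgroup G)⁆ := by
    rintro x ⟨hxc, hxA⟩
    obtain ⟨c, hcm, z, hz, rfl⟩ := Subgroup.mem_sup_of_normal_left.mp (h2 hxA)
    have hz1 : z ∈ A ⊓ commutator G ⊓ Subgroup.center G := by
      refine ⟨⟨hz.2, ?_⟩, hz.1⟩
      have : z = c⁻¹ * (c * z) := by group
      rw [this]
      exact Subgroup.mul_mem _ (Subgroup.inv_mem _ (h1 hcm).1) hxc
    rw [h0, Subgroup.mem_bot] at hz1
    rw [hz1, mul_one]
    exact hcm
  have h4 : ⁅A, (⊤ : Subgroup G)⁆ = commutator G ⊓ A := le_antisymm h1 h3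
  refine ⟨h4, ?_, ?_⟩
  · rw [eq_bot_iff, ← h0]
    rintro x ⟨⟨h5, h6⟩, h7, _⟩
    exact ⟨⟨h6, h5⟩, h7⟩
  · apply le_antisymm
    · exact sup_le inf_le_right inf_le_right
    · rw [← h4]; exact h2

end Cfsg.Agent.Lib.Helper3
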