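import Mathlib
import Cfsg.Agent.Lib.Helper3.AbelianHallSplit

set_option autoImplicit false

namespace Cfsg.Agent.Lib.Helper3

open scoped commutatorElement

/-- relative version of `abelian_normal_hall_split`. -/
theorem abelian_rel_hall_split {G : Type*} [Group G] [Finite G] (H K : Subgroup G) (hHK : H ≤ K)
    (hn : (H.subgroupOf K).Normal) (hc : IsMulCommutative H)
    (hHall : Nat.Coprime (Nat.card H) (H.relIndex K)) :
    ⁅H, K⁆ ⊓ (H ⊓ Subgroup.centralizer (K : Set G)) = ⊥ ∧
      H ≤ ⁅H, K⁆ ⊔ (H ⊓ Subgroup.centralizer (K : Set G)) := by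
  have hcA : IsMulCommutative (H.subgroupOf K) := inferInstance
  have hcard : Nat.card (H.subgroupOf K) = Nat.card H :=
    Nat.card_congr (Subgroup.subgroupOfEquivOfLe hHK).toEquiv
  have hHall' : Nat.Coprime (Nat.card (H.subgroupOf K)) (H.subgroupOf K).index := by
    rw [hcard]; exact hHall
  obtain ⟨h1, h2, h3⟩ := abelian_normal_hall_split (H.subgroupOf K) hcA hHall'
  rw [← h1] at h2 h3
  have hmap : (⁅H.subgroupOf K, (⊤ : Subgroup K)⁆).map K.subtype = ⁅H, K⁆ := by
    rw [Subgroup.map_commutator, Subgroup.subgroupOf_map_subtype, inf_eq_left.mpr hHK,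
      ← MonoidHom.range_eq_map, Subgroup.range_subtype]
  have hcen : ∀ x : K, x ∈ Subgroup.center K ↔ (x : G) ∈ Subgroup.centralizer (K : Set G) := by
    intro x
    rw [Subgroup.mem_center_iff, Subgroup.mem_centralizer_iff]
    constructor
    · intro h g hg
      exact congrArg Subtype.val (h ⟨g, hg⟩)
    · intro h g
      exact Subtype.ext (h g g.2)
  constructor
  · rw [eq_bot_iff]
    rintro x ⟨hx1, hx2, hx3⟩
    rw [← hmap] at hx1
    obtain ⟨y, hy, rfl⟩ := hx1
    have : y ∈ ⁅H.subgroupOf K, (⊤ : Subgroup K)⁆ ⊓ (Subgroup.center K ⊓ H.subgroupOf K) :=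
      ⟨hy, (hcen y).mpr hx3, hx2⟩
    rw [h2, Subgroup.mem_bot] at this
    rw [this]
    exact Subgroup.one_mem _
  · intro x hx
    have hxA : (⟨x, hHK hx⟩ : K) ∈ H.subgroupOf K := hx
    rw [← h3] at hxA
    obtain ⟨c, hcm, z, hz, hcz⟩ := Subgroup.mem_sup_of_normal_left.mp hxA
    have : x = (c : G) * z := by
      have := congrArg Subtype.val hcz
      simpa using this.symm
    rw [this]
    refine Subgroup.mul_mem_sup ?_ ⟨hz.2, (hcen z).mp hz.1⟩
    rw [← hmap]
    exact ⟨c, hcm, rfl⟩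

/-- for an abelian Sylow subgroup, the focal subgroup is `[P, N(P)]` -/
theorem focalSubgroup_eq_of_abelian {G : Type*} [Group G] [Finite G] {p : ℕ} [Fact p.Prime]
    (P : Sylow p G) (hP : IsMulCommutative P) :
    (P : Subgroup G).focalSubgroup = ⁅(P : Subgroup G), Subgroup.normalizer (P : Set G)⁆ := by
  apply le_antisymm
  · rw [Subgroup.focalSubgroup_def, Subgroup.closure_le]
    rintro g ⟨hg, x, hx, u, rfl⟩
    -- `⁅x,u⁆ = x * u * x⁻¹ * u⁻¹`
    have h1 : u * x⁻¹ * u⁻¹ ∈ (P : Subgroup G) := by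
      have : u * x⁻¹ * u⁻¹ = x⁻¹ * ⁅x, u⁆ := by
        rw [commutatorElement_def]; group
      rw [this]
      exact Subgroup.mul_mem _ (Subgroup.inv_mem _ hx) hg
    obtain ⟨n, hn, hne⟩ := P.conj_eq_normalizer_conj_of_mem x⁻¹ u⁻¹ (Subgroup.inv_mem _ hx)
      (by rw [inv_inv]; exact h1)
    have h2 : ⁅x, u⁆ = ⁅x, n⁻¹⁆ := by
      rw [commutatorElement_def, commutatorElement_def]
      simp only [inv_inv] at hne
      rw [mul_assoc x, mul_assoc x, hne]
      group
    rw [h2]
    exact Subgroup.commutator_mem_commutator hx (Subgroup.inv_mem _ hn)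
  · rw [Subgroup.commutator_le]
    intro x hx n hn
    rw [Subgroup.focalSubgroup_def]
    apply Subgroup.subset_closure
    refine ⟨?_, x, hx, n, rfl⟩
    rw [commutatorElement_def, mul_assoc, mul_assoc]
    refine Subgroup.mul_mem _ hx ?_
    rw [← mul_assoc]
    exact (Subgroup.mem_normalizer_iff.mp hn x⁻¹).mp (Subgroup.inv_mem _ hx)

theorem abelian_sylow_split {G : Type*} [Group G] [Finite G] {p : ℕ} [Fact p.Prime]
    (P : Sylow p G) (hP : IsMulCommutative P) :
    (P : Subgroup G).focalSubgroup ⊓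
        ((P : Subgroup G) ⊓ Subgroup.centralizer (Subgroup.normalizer (P : Set G) : Set G)) = ⊥ ∧
      (P : Subgroup G) ≤ (P : Subgroup G).focalSubgroup ⊔
        ((P : Subgroup G) ⊓ Subgroup.centralizer (Subgroup.normalizer (P : Set G) : Set G)) := by
  rw [focalSubgroup_eq_of_abelian P hP]
  apply abelian_rel_hall_split (P : Subgroup G) (Subgroup.normalizer (P : Set G))
    Subgroup.le_normalizer Subgroup.normal_in_normalizer hP
  exact Nat.Coprime.coprime_dvd_right (Subgroup.relIndex_dvd_index_of_le Subgroup.le_normalizer) P.card_coprime_index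

end Cfsg.Agent.Lib.Helper3
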