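import Cfsg.Agent.Lib.Helper3.NarrowData
import Cfsg.Agent.Lib.Helper3.RankTwoFitting
import Cfsg.Agent.Lib.Helper2.BG10B
import Cfsg.Agent.S0044

/-!
Auxiliary lemmas for Bender--Glauberman 11.7.
-/

set_option autoImplicit false

namespace Cfsg.Agent.Lib.Helper3.BG117

open Subgroup Cfsg.Agent.Lib.Helper30 Cfsg.Agent.Lib.Helper2
open scoped commutatorElement

universe u

/-- `A ≤ P`, `P` an abelian Sylow `p`-subgroup of the solvable group `E` with `Ω₁(P) = A`; if `A`
centralizes `O_q(E)` for all `q ≠ p` then `A` is normal in `E`. -/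
theorem normal_of_centralizes_pCores {E : Type*} [Group E] [Finite E] [Group.IsSolvable E] {p : ℕ}
    [hp : Fact p.Prime] (A : Subgroup E) (P : Sylow p E)
    (hPab : ∀ x ∈ P, ∀ y ∈ P, x * y = y * x) (hAP : A ≤ (P : Subgroup E))
    (hΩ : ∀ x ∈ P, x ^ p = 1 → x ∈ A) (hAe : ∀ a ∈ A, a ^ p = 1)
    (hc : ∀ q : ℕ, q.Prime → q ≠ p → A ≤ centralizer (Cfsg.pCore q E : Set E)) : A.Normal := by
  have hOpP : Cfsg.pCore p E ≤ (P : Subgroup E) := by
    have hn : (Cfsg.pCore p E).Normal := Cfsg.Agent.Lib.Helper1.pCore_normal p E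
    obtain ⟨Q, hQ⟩ := (Cfsg.Agent.Lib.Helper1.pCore_isPGroup p E).exists_le_sylow
    obtain ⟨g, rfl⟩ := MulAction.exists_smul_eq E Q P
    intro x hx
    rw [Sylow.coe_subgroup_smul, Subgroup.mem_pointwise_smul_iff_inv_smul_mem]
    apply hQ
    have := hn.conj_mem x hx g⁻¹
    simpa [MulAut.smul_def] using this
  have hAF : A ≤ centralizer (Cfsg.fittingSubgroup E : Set E) := by
    rw [le_centralizer_iff, Cfsg.Agent.Lib.Helper1.fitting_eq_iSup_pCore, iSup_le_iff]
    intro q
    rw [← le_centralizer_iff]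
    by_cases hq : (q : ℕ) = p
    · rw [hq]
      intro a ha
      rw [mem_centralizer_iff]
      intro x hx
      exact hPab x (hOpP hx) a (hAP ha)
    · exact hc q q.2 hq
  have hAF' : A ≤ Cfsg.fittingSubgroup E := hAF.trans Cfsg.Agent.S0044.result
  have hAO : A ≤ Cfsg.pCore p E := by
    intro a ha
    exact mem_pCore_of_mem_fitting (hAF' ha) (k := 1) (by rw [pow_one]; exact hAe a ha)
  have hn : (Cfsg.pCore p E).Normal := Cfsg.Agent.Lib.Helper1.pCore_normal p E
  constructor
  intro a ha g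
  apply hΩ _ (hOpP (hn.conj_mem a (hAO ha) g))
  rw [conj_pow, hAe a ha]
  simp

variable {G : Type u} [Group G]

/-- `p`-elements of `N(Q)'` centralize `Q` when `Q` has rank at most two or is narrow. -/
theorem centralizes_of_le_commutator_normalizer [Finite G] {p q : ℕ} [hp : Fact p.Prime]
    [hq : Fact q.Prime] (hpq : p ≠ q) (hq2 : q ≠ 2) {A Q : Subgroup G} (hAp : IsPGroup p A)
    (hQ : IsPGroup q Q) (hsol : Group.IsSolvable (normalizer (Q : Set G)))
    (hodd : Odd (Nat.card (normalizer (Q : Set G))))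
    (hA : A ≤ ⁅normalizer (Q : Set G), normalizer (Q : Set G)⁆)
    (hr : Cfsg.PRankLE q 2 Q ∨ NarrowData q Q) : A ≤ centralizer (Q : Set G) := by
  have key : ∀ h ∈ commutator (normalizer (Q : Set G)),
      (orderOf (Q.normalizerMonoidHom h)).Coprime q → Q.normalizerMonoidHom h = 1 := by
    by_cases hr2 : Cfsg.PRankLE q 2 Q
    · exact commutator_act_trivial_of_rank_two hq2 hQ hr2 hodd Q.normalizerMonoidHom
    · have hN : NarrowData q Q := hr.resolve_left hr2
      intro h hh hc
      exact (narrow_act hq2 hQ hr2 hN).1 _ (map_commutator_le _ hh) hc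
  intro a ha
  have ha' := hA ha
  rw [← map_subtype_commutator] at ha'
  obtain ⟨y, hy, rfl⟩ := ha'
  obtain ⟨k, hk⟩ := hAp ⟨(y : G), ha⟩
  have hyk : y ^ p ^ k = 1 := by
    apply Subtype.ext
    have := congrArg Subtype.val hk
    simpa using this
  have hord : (orderOf (Q.normalizerMonoidHom y)).Coprime q := by
    have h1 : orderOf (Q.normalizerMonoidHom y) ∣ p ^ k := by
      apply orderOf_dvd_of_pow_eq_one
      rw [← map_pow, hyk, map_one]
    exact Nat.Coprime.coprime_dvd_left h1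
      (Nat.Coprime.pow_left _ ((Nat.coprime_primes hp.out hq.out).mpr hpq))
  have h1 := key y hy hord
  apply mem_centralizer_iff.mpr
  intro r hr'
  have h3 := congrArg (fun a : MulAut ↥Q => ((a ⟨r, hr'⟩ : ↥Q) : G)) h1
  have h4 : (y : G) * r * (y : G)⁻¹ = r := h3
  rw [mul_inv_eq_iff_eq_mul] at h4
  exact h4.symm

end Cfsg.Agent.Lib.Helper3.BG117
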