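import Cfsg.Agent.Lib.Helper51.BG37
import Cfsg.Agent.Lib.Helper68.BG10C
import Cfsg.Agent.S3769

/-!
Bender--Glauberman, the "HH" step for 11.7: a subgroup `X` of prime order acting fixed point freely
on a coprime group `S` forces `[Q, X]` to centralize `S` for every `X`-invariant `q`-group `Q` acting
on `S` (odd order, solvable).
-/

set_option autoImplicit false

namespace Cfsg.Agent.Lib.Helper3.BG117

open Subgroup Cfsg.Agent.Lib.Helper28 Cfsg.Agent.Lib.Helper1
open scoped Pointwise commutatorElement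

universe u

variable {G : Type u} [Group G]

/-- type-level form: `U` a normal `ℓ`-subgroup. -/
theorem comm_centralizes_normal [Finite G] (hsolv : Group.IsSolvable G)
    (hodd : Odd (Nat.card G)) {ℓ : ℕ} [hℓ : Fact ℓ.Prime] (U : Subgroup G) [hUn : U.Normal]
    (hUp : IsPGroup ℓ U) (X : Subgroup G) (hX : (Nat.card X).Prime) (hℓr : ℓ ≠ Nat.card X)
    (hF : U ⊓ centralizer (X : Set G) = ⊥) {q : ℕ} [hq : Fact q.Prime] (Q : Subgroup G)
    (hQ : IsPGroup q Q) (hqX : q ≠ Nat.card X) (hXQ : X ≤ normalizer (Q : Set G))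
    (hℓq : ℓ ≠ q) : ⁅Q, X⁆ ≤ centralizer (U : Set G) := by
  set Φ := (frattini U).map U.subtype with hΦ
  have hΦn : Φ.Normal := map_subtype_normal_of_characteristic hUn inferInstance
  have hΦU : Φ ≤ U := Subgroup.map_subtype_le _
  set π := QuotientGroup.mk' Φ with hπ
  obtain ⟨kQ, hkQ⟩ := IsPGroup.iff_card.mp hQ
  obtain ⟨kU, hkU⟩ := IsPGroup.iff_card.mp hUp
  have hQXcop : (Nat.card X).Coprime (Nat.card Q) := by
    rw [hkQ]
    exact Nat.Coprime.pow_right _ ((Nat.coprime_primes hX hq.out).mpr (Ne.symm hqX))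
  have hXU : (Nat.card X).Coprime (Nat.card U) := by
    rw [hkU]
    exact Nat.Coprime.pow_right _ ((Nat.coprime_primes hX hℓ.out).mpr (Ne.symm hℓr))
  have hcardQX : Nat.card (X ⊔ Q : Subgroup G) = Nat.card X * Nat.card Q :=
    card_sup_of_coprime_le_normalizer hXQ hQXcop
  have hℓQX : ¬ ℓ ∣ Nat.card (Q ⊔ X : Subgroup G) := by
    rw [sup_comm, hcardQX]
    intro hd
    rcases (Nat.Prime.dvd_mul hℓ.out).mp hd with h | h
    · exact hℓr ((Nat.prime_dvd_prime_iff_eq hℓ.out hX).mp h)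
    · rw [hkQ] at h
      exact hℓq ((Nat.prime_dvd_prime_iff_eq hℓ.out hq.out).mp (hℓ.out.dvd_of_dvd_pow h))
  have hmapdvd : ∀ S : Subgroup G, Nat.card (S.map π) ∣ Nat.card S := fun S =>
    Dvd.intro _ (card_map_mul_card_inf_ker π S)
  have hXΦ : (Nat.card X).Coprime (Nat.card Φ) :=
    Nat.Coprime.coprime_dvd_right (card_dvd_of_le hΦU) hXU
  have hcardX : Nat.card (X.map π) = Nat.card X := card_map_mk_of_coprime Φ hXΦ
  have key := Cfsg.Agent.S3769.result (X := G ⧸ Φ) ((Q ⊔ X).map π) inferInstance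
    (Odd.of_dvd_nat hodd ((hmapdvd _).trans (Subgroup.card_subgroup_dvd_card _)))
    (U.map π) hℓ.out (Cfsg.Agent.Lib.Helper51.BG37.isElementaryAbelian_map_mk U hUp Φ hΦ)
    (fun hd => hℓQX (hd.trans (hmapdvd _)))
    (by
      have : (U.map π).Normal := hUn.map π (QuotientGroup.mk'_surjective Φ)
      rw [Subgroup.normalizer_eq_top]
      exact le_top)
    (Q.map π) (X.map π) (Subgroup.map_mono le_sup_left)
    (by
      have h1 : Q ⊔ X ≤ normalizer (Q : Set G) := sup_le le_normalizer hXQ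
      exact (Subgroup.map_mono h1).trans (Subgroup.le_normalizer_map π))
    (by
      have h1 : X.map π ≤ normalizer ((Q.map π : Subgroup (G ⧸ Φ)) : Set (G ⧸ Φ)) :=
        (Subgroup.map_mono hXQ).trans (Subgroup.le_normalizer_map π)
      rw [Subgroup.map_sup, sup_comm, relIndex_sup_right_of_le_normalizer h1]
      refine Nat.Coprime.coprime_dvd_left (hmapdvd Q) ?_
      refine Nat.Coprime.coprime_dvd_right (Subgroup.relIndex_dvd_card _ _) ?_
      rw [hcardX]
      exact hQXcop.symm)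
    (Subgroup.map_mono le_sup_right) (by rw [hcardX]; exact hX)
    (by
      apply (Subgroup.disjoint_of_coprime_natCard _).eq_bot
      rw [hcardX]
      exact Nat.Coprime.coprime_dvd_left (hmapdvd Q) hQXcop.symm)
    (by rw [Subgroup.map_sup])
    (by
      rw [eq_bot_iff]
      rintro _ ⟨⟨u, hu, rfl⟩, hc⟩
      have hfix : ∀ a ∈ X, a * u * a⁻¹ * u⁻¹ ∈ Φ := by
        intro a ha
        have h1 := Subgroup.mem_centralizer_iff.mp hc (π a) ⟨a, ha, rfl⟩
        rw [← QuotientGroup.eq_one_iff]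
        change π (a * u * a⁻¹ * u⁻¹) = 1
        rw [map_mul, map_mul, map_mul, h1]
        simp
      obtain ⟨c, hc1, hc2⟩ := coprime_fixed_points_quotient X U hXU
        (Or.inr (isSolvable_of_le (le_top : U ≤ ⊤) inferInstance)) Φ hΦU
        (by rw [Subgroup.normalizer_eq_top]; exact le_top)
        (by rw [Subgroup.normalizer_eq_top]; exact le_top) u hu hfix
      have hc3 : c ∈ U ⊓ centralizer (X : Set G) := hc1
      rw [hF, Subgroup.mem_bot] at hc3
      rw [hc3, mul_one] at hc2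
      rw [Subgroup.mem_bot]
      exact (QuotientGroup.eq_one_iff u).mpr (by simpa using Φ.inv_mem hc2))
  -- translate back
  apply coprime_trivial_on_frattini_quotient ⁅Q, X⁆ U
  · rw [Subgroup.normalizer_eq_top]; exact le_top
  · have h1 : Nat.card (⁅Q, X⁆ : Subgroup G) ∣ Nat.card Q :=
      card_dvd_of_le (commutator_le_left_of_le_normalizer hXQ)
    obtain ⟨m, hm⟩ := IsPGroup.iff_card.mp (hUp.to_subgroup (frattini U))
    rw [hm]
    refine Nat.Coprime.coprime_dvd_left h1 ?_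
    rw [hkQ]
    exact Nat.Coprime.pow _ _ ((Nat.coprime_primes hq.out hℓ.out).mpr (Ne.symm hℓq))
  · intro a ha k hk
    have h1 : π a ∈ ⁅X.map π, Q.map π⁆ := by
      rw [← Subgroup.map_commutator, commutator_comm]
      exact ⟨a, ha, rfl⟩
    have h2 := Subgroup.mem_centralizer_iff.mp (key h1) (π k) ⟨k, hk, rfl⟩
    rw [← hΦ, ← QuotientGroup.eq_one_iff]
    change π (a * k * a⁻¹ * k⁻¹) = 1
    rw [map_mul, map_mul, map_mul, ← h2]
    simp


/-- ambient form: `U` an `ℓ`-subgroup normalized by the solvable odd group `L ≥ U, Q, X`. -/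
theorem comm_centralizes_pgroup [Finite G] {L U Q X : Subgroup G} (hLs : Group.IsSolvable L)
    (hLo : Odd (Nat.card L)) (hUL : U ≤ L) (hQL : Q ≤ L) (hXL : X ≤ L)
    (hLU : L ≤ normalizer (U : Set G)) {ℓ : ℕ} [hℓ : Fact ℓ.Prime] (hUp : IsPGroup ℓ U)
    (hX : (Nat.card X).Prime) (hℓr : ℓ ≠ Nat.card X)
    (hF : U ⊓ centralizer (X : Set G) = ⊥) {q : ℕ} [hq : Fact q.Prime]
    (hQ : IsPGroup q Q) (hqX : q ≠ Nat.card X) (hXQ : X ≤ normalizer (Q : Set G))
    (hℓq : ℓ ≠ q) : ⁅Q, X⁆ ≤ centralizer (U : Set G) := by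
  have hUn : (U.subgroupOf L).Normal := normal_subgroupOf_of_le_normalizer hLU
  have hcX : Nat.card (X.subgroupOf L) = Nat.card X := Cfsg.Agent.Lib.Helper30.card_subgroupOf hXL
  have key := comm_centralizes_normal (G := ↥L) hLs hLo (U.subgroupOf L)
    (hUp.comap_subtype) (X.subgroupOf L) (by rw [hcX]; exact hX) (by rw [hcX]; exact hℓr)
    (by
      rw [eq_bot_iff]
      rintro ⟨u, huL⟩ ⟨hu1, hu2⟩
      have h1 : u ∈ U ⊓ centralizer (X : Set G) := by
        refine ⟨mem_subgroupOf.mp hu1, ?_⟩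
        apply mem_centralizer_iff.mpr
        intro x hx
        have := mem_centralizer_iff.mp hu2 ⟨x, hXL hx⟩ (mem_subgroupOf.mpr hx)
        exact congrArg Subtype.val this
      rw [hF, mem_bot] at h1
      rw [mem_bot]
      exact Subtype.ext h1)
    (Q.subgroupOf L) (hQ.comap_subtype) (by rw [hcX]; exact hqX)
    (by
      rintro ⟨x, hxL⟩ hx
      rw [mem_normalizer_iff]
      rintro ⟨y, hyL⟩
      exact mem_normalizer_iff.mp (hXQ (mem_subgroupOf.mp hx)) y)
    hℓq
  have h1 : ⁅Q, X⁆ = (⁅Q.subgroupOf L, X.subgroupOf L⁆).map L.subtype := by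
    rw [map_commutator, subgroupOf_map_subtype, subgroupOf_map_subtype, inf_eq_left.mpr hQL,
      inf_eq_left.mpr hXL]
  rw [h1]
  rintro _ ⟨y, hy, rfl⟩
  rw [mem_centralizer_iff]
  intro u hu
  have := mem_centralizer_iff.mp (key hy) ⟨u, hUL hu⟩ (mem_subgroupOf.mpr hu)
  exact congrArg Subtype.val this

/-- **HH**: `X` of prime order acts fixed point freely on `S`; `Q` an `X`-invariant `q`-group acting on
`S`, everything inside a solvable group `L` of odd order, orders coprime: `[Q, X]` centralizes `S`. -/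
theorem comm_centralizes_of_fpf [Finite G] {L S Q X : Subgroup G} (hLs : Group.IsSolvable L)
    (hLo : Odd (Nat.card L)) (hSL : S ≤ L) (hQL : Q ≤ L) (hXL : X ≤ L)
    (hQS : Q ≤ normalizer (S : Set G)) (hXS : X ≤ normalizer (S : Set G))
    (hX : (Nat.card X).Prime) (hF : S ⊓ centralizer (X : Set G) = ⊥) {q : ℕ} [hq : Fact q.Prime]
    (hQ : IsPGroup q Q) (hqX : q ≠ Nat.card X) (hXQ : X ≤ normalizer (Q : Set G))
    (hSq : (Nat.card S).Coprime q) (hSX : (Nat.card S).Coprime (Nat.card X)) :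
    ⁅Q, X⁆ ≤ centralizer (S : Set G) := by
  rw [le_centralizer_iff]
  apply Cfsg.Agent.Lib.Helper68.le_of_forall_isSylowIn
  intro ℓ hℓ hℓS
  obtain ⟨kQ, hkQ⟩ := IsPGroup.iff_card.mp hQ
  have hQXcop : (Nat.card X).Coprime (Nat.card Q) := by
    rw [hkQ]
    exact Nat.Coprime.pow_right _ ((Nat.coprime_primes hX hq.out).mpr (Ne.symm hqX))
  have hcardQX : Nat.card (X ⊔ Q : Subgroup G) = Nat.card X * Nat.card Q :=
    card_sup_of_coprime_le_normalizer hXQ hQXcop
  have hcop : (Nat.card (X ⊔ Q : Subgroup G)).Coprime (Nat.card S) := by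
    rw [hcardQX, hkQ]
    exact Nat.Coprime.mul_left hSX.symm (Nat.Coprime.pow_left _ hSq.symm)
  have hSs : Group.IsSolvable S := isSolvable_of_le hSL hLs
  obtain ⟨U, hU, hUn⟩ := Cfsg.Agent.Lib.Helper30.exists_invariant_isSylowIn
    (sup_le hXS hQS) hcop (Or.inr hSs) ℓ
  refine ⟨U, hU, ?_⟩
  rw [← le_centralizer_iff]
  have hℓX : ℓ ≠ Nat.card X := by
    intro h
    have := Nat.Coprime.coprime_dvd_left hℓS hSX
    rw [← h] at this
    exact hℓ.out.one_lt.ne' ((Nat.coprime_self ℓ).mp this)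
  have hℓq : ℓ ≠ q := by
    intro h
    have := Nat.Coprime.coprime_dvd_left hℓS hSq
    rw [← h] at this
    exact hℓ.out.one_lt.ne' ((Nat.coprime_self ℓ).mp this)
  have hLs' : Group.IsSolvable ↥(L ⊓ normalizer (U : Set G)) := isSolvable_of_le inf_le_left hLs
  exact comm_centralizes_pgroup (L := L ⊓ normalizer (U : Set G)) hLs'
    (Odd.of_dvd_nat hLo (card_dvd_of_le inf_le_left))
    (le_inf (hU.le.trans hSL) le_normalizer) (le_inf hQL (le_sup_right.trans hUn))
    (le_inf hXL (le_sup_left.trans hUn)) inf_le_right hU.isPGroup hX hℓX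
    (by rw [eq_bot_iff, ← hF]; exact inf_le_inf_right _ hU.le) hQ hqX hXQ hℓq

end Cfsg.Agent.Lib.Helper3.BG117
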