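import Mathlib
import Cfsg.Agent.Lib.Helper3.Extraspecial

set_option autoImplicit false

namespace Cfsg.Agent.Lib.Helper3

open scoped commutatorElement

section Single

variable {E : Type*} [Group E]

theorem rearr (a b q a' b' q' c : E) (h1 : q * a' = a' * q) (h2 : q * b' = b' * q)
    (h3 : b * a' = a' * b * c) (h4 : c * b' = b' * c) :
    (a * b * q) * (a' * b' * q') = (a * a') * (b * b') * (c * q * q') := by
  calc (a * b * q) * (a' * b' * q') = a * b * (q * a') * b' * q' := by simp only [mul_assoc]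
    _ = a * b * (a' * q) * b' * q' := by rw [h1]
    _ = a * (b * a') * (q * b') * q' := by simp only [mul_assoc]
    _ = a * (a' * b * c) * (b' * q) * q' := by rw [h2, h3]
    _ = a * a' * b * (c * b') * q * q' := by simp only [mul_assoc]
    _ = a * a' * b * (b' * c) * q * q' := by rw [h4]
    _ = (a * a') * (b * b') * (c * q * q') := by simp only [mul_assoc]

variable (hc : commutator E ≤ Subgroup.center E)
include hc

theorem comm_mem_center (a b : E) : ⁅a, b⁆ ∈ Subgroup.center E :=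
  hc (Subgroup.commutator_mem_commutator (Subgroup.mem_top a) (Subgroup.mem_top b))

theorem comm_zpow_right (a b : E) (i : ℤ) : ⁅a, b ^ i⁆ = ⁅a, b⁆ ^ i := by
  have := map_zpow (commHom hc a) b i
  exact congrArg Subtype.val this

theorem comm_zpow_left (a b : E) (k : ℤ) : ⁅a ^ k, b⁆ = ⁅a, b⁆ ^ k := by
  rw [← commutatorElement_inv, comm_zpow_right hc, ← inv_zpow, commutatorElement_inv]

theorem comm_zpow_zpow (a b : E) (k i : ℤ) : ⁅a ^ k, b ^ i⁆ = ⁅a, b⁆ ^ (k * i) := by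
  rw [comm_zpow_right hc, comm_zpow_left hc, zpow_mul]

theorem swap_zpow (x y : E) (k i : ℤ) : x ^ k * y ^ i = y ^ i * x ^ k * ⁅x, y⁆ ^ (k * i) := by
  rw [← comm_zpow_zpow hc]
  have hz := Subgroup.mem_center_iff.mp (comm_mem_center hc (x ^ k) (y ^ i)) (y ^ i * x ^ k)
  rw [hz, commutatorElement_def]
  group

/-- product formula -/
theorem decomp_mul (x y : E) (i k i' k' : ℤ) (q q' : E) (hq : q ∈ (commHom₂ hc x y).ker) :
    (y ^ i * x ^ k * q) * (y ^ i' * x ^ k' * q') =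
      y ^ (i + i') * x ^ (k + k') * (⁅x, y⁆ ^ (k * i') * q * q') := by
  rw [mem_ker_commHom₂] at hq
  rw [zpow_add, zpow_add]
  apply rearr
  · exact ((hq.2.zpow_left i').eq).symm
  · exact ((hq.1.zpow_left k').eq).symm
  · exact swap_zpow hc x y k i'
  · have hz : ⁅x, y⁆ ^ (k * i') ∈ Subgroup.center E :=
      Subgroup.zpow_mem _ (comm_mem_center hc x y) _
    exact (Subgroup.mem_center_iff.mp hz _).symm

variable {p : ℕ} [Fact p.Prime] (hZ : Nat.card (Subgroup.center E) = p)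
include hZ

theorem center_pow_p (z : E) (hz : z ∈ Subgroup.center E) : z ^ p = 1 := by
  have : (⟨z, hz⟩ : Subgroup.center E) ^ Nat.card (Subgroup.center E) = 1 := pow_card_eq_one'
  rw [hZ] at this
  exact congrArg Subtype.val this

theorem pow_p_mem_center (x : E) : x ^ p ∈ Subgroup.center E := by
  rw [Subgroup.mem_center_iff]
  intro g
  have h1 : ⁅g, x ^ p⁆ = 1 := by
    have := comm_zpow_right hc g x p
    rw [zpow_natCast, zpow_natCast, center_pow_p hc hZ _ (comm_mem_center hc g x)] at this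
    exact this
  exact commutatorElement_eq_one_iff_mul_comm.mp h1

theorem orderOf_comm (x y : E) (hxy : ¬ Commute x y) : orderOf ⁅x, y⁆ = p := by
  apply orderOf_eq_prime (center_pow_p hc hZ _ (comm_mem_center hc x y))
  intro h
  exact hxy (commutatorElement_eq_one_iff_commute.mp h)

/-- if `y ^ i * x ^ k * q = 1` then `p ∣ i` and `p ∣ k` -/
theorem dvd_of_decomp_eq_one (x y : E) (hxy : ¬ Commute x y) (i k : ℤ) (q : E)
    (hq : q ∈ (commHom₂ hc x y).ker) (h : y ^ i * x ^ k * q = 1) : (p : ℤ) ∣ i ∧ (p : ℤ) ∣ k := by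
  rw [mem_ker_commHom₂] at hq
  have hxq : commHom hc x q = 1 := (mem_ker_commHom hc x q).mpr hq.1
  have hyq : commHom hc y q = 1 := (mem_ker_commHom hc y q).mpr hq.2
  have hxx : commHom hc x x = 1 := (mem_ker_commHom hc x x).mpr (Commute.refl x)
  have hyy : commHom hc y y = 1 := (mem_ker_commHom hc y y).mpr (Commute.refl y)
  constructor
  · have h1 := congrArg (commHom hc x) h
    rw [map_mul, map_mul, map_zpow, map_zpow, hxx, hxq, one_zpow, mul_one, mul_one, map_one] at h1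
    have h2 : ⁅x, y⁆ ^ i = 1 := congrArg Subtype.val h1
    rw [← orderOf_comm hc hZ x y hxy]
    exact orderOf_dvd_iff_zpow_eq_one.mpr h2
  · have h1 := congrArg (commHom hc y) h
    rw [map_mul, map_mul, map_zpow, map_zpow, hyy, hyq, one_zpow, one_mul, mul_one, map_one] at h1
    have h2 : ⁅y, x⁆ ^ k = 1 := congrArg Subtype.val h1
    rw [← orderOf_comm hc hZ y x (fun h => hxy h.symm)]
    exact orderOf_dvd_iff_zpow_eq_one.mpr h2

end Single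

section Extension

universe u v

variable {E₁ : Type u} {E₂ : Type v} [Group E₁] [Group E₂] [Finite E₁] [Finite E₂]
  {p : ℕ} [Fact p.Prime]
  (hc₁ : commutator E₁ ≤ Subgroup.center E₁) (hc₂ : commutator E₂ ≤ Subgroup.center E₂)
  (hZ₁ : Nat.card (Subgroup.center E₁) = p) (hZ₂ : Nat.card (Subgroup.center E₂) = p)
  (x₁ y₁ : E₁) (x₂ y₂ : E₂) (hxy₁ : ¬ Commute x₁ y₁) (hxy₂ : ¬ Commute x₂ y₂)
  (f : (commHom₂ hc₁ x₁ y₁).ker ≃* (commHom₂ hc₂ x₂ y₂).ker)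
  (hz : ∀ q : (commHom₂ hc₁ x₁ y₁).ker, (q : E₁) = ⁅x₁, y₁⁆ → (f q : E₂) = ⁅x₂, y₂⁆)
  (hx : ∀ q : (commHom₂ hc₁ x₁ y₁).ker, (q : E₁) = x₁ ^ p → (f q : E₂) = x₂ ^ p)
  (hy : ∀ q : (commHom₂ hc₁ x₁ y₁).ker, (q : E₁) = y₁ ^ p → (f q : E₂) = y₂ ^ p)

include hz in
/-- the graph of the extended isomorphism -/
def extGraph : Subgroup (E₁ × E₂) where
  carrier := {w | ∃ (i k : ℤ) (q : (commHom₂ hc₁ x₁ y₁).ker),
    w = (y₁ ^ i * x₁ ^ k * q, y₂ ^ i * x₂ ^ k * f q)}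
  one_mem' := ⟨0, 0, 1, Prod.ext (by simp) (by simp)⟩
  mul_mem' := by
    rintro _ _ ⟨i, k, q, rfl⟩ ⟨i', k', q', rfl⟩
    have hzm : ⁅x₁, y₁⁆ ∈ (commHom₂ hc₁ x₁ y₁).ker :=
      center_le_ker hc₁ x₁ y₁ (comm_mem_center hc₁ x₁ y₁)
    refine ⟨i + i', k + k', (⟨⁅x₁, y₁⁆, hzm⟩ : (commHom₂ hc₁ x₁ y₁).ker) ^ (k * i') * q * q', ?_⟩
    apply Prod.ext
    · show (y₁ ^ i * x₁ ^ k * q) * (y₁ ^ i' * x₁ ^ k' * q') = _
      rw [decomp_mul hc₁ x₁ y₁ i k i' k' q q' q.2]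
      rfl
    · show (y₂ ^ i * x₂ ^ k * f q) * (y₂ ^ i' * x₂ ^ k' * f q') = _
      rw [decomp_mul hc₂ x₂ y₂ i k i' k' (f q) (f q') (f q).2, map_mul, map_mul, map_zpow]
      have := hz ⟨⁅x₁, y₁⁆, hzm⟩ rfl
      simp only [Subgroup.coe_mul, Subgroup.coe_zpow, this]
  inv_mem' := by
    rintro _ ⟨i, k, q, rfl⟩
    have hzm : ⁅x₁, y₁⁆ ∈ (commHom₂ hc₁ x₁ y₁).ker :=
      center_le_ker hc₁ x₁ y₁ (comm_mem_center hc₁ x₁ y₁)
    refine ⟨-i, -k, ((⟨⁅x₁, y₁⁆, hzm⟩ : (commHom₂ hc₁ x₁ y₁).ker) ^ (k * (-i)) * q)⁻¹, ?_⟩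
    rw [eq_comm, ← mul_eq_one_iff_eq_inv']
    apply Prod.ext
    · show (y₁ ^ i * x₁ ^ k * q) * (y₁ ^ (-i) * x₁ ^ (-k) * _) = 1
      rw [decomp_mul hc₁ x₁ y₁ i k (-i) (-k) q _ q.2]
      simp
    · show (y₂ ^ i * x₂ ^ k * f q) * (y₂ ^ (-i) * x₂ ^ (-k) * _) = 1
      rw [decomp_mul hc₂ x₂ y₂ i k (-i) (-k) (f q) _ (f q).2, map_inv, map_mul, map_zpow]
      have := hz ⟨⁅x₁, y₁⁆, hzm⟩ rfl
      simp [this]

theorem mem_extGraph (w : E₁ × E₂) : w ∈ extGraph hc₁ hc₂ x₁ y₁ x₂ y₂ f hz ↔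
    ∃ (i k : ℤ) (q : (commHom₂ hc₁ x₁ y₁).ker),
      w = (y₁ ^ i * x₁ ^ k * q, y₂ ^ i * x₂ ^ k * f q) := Iff.rfl

include hZ₁ hZ₂ hxy₁ hxy₂ hx hy hz in
/-- **Extension lemma**: an isomorphism between the centralizers of two noncommuting pairs which is
compatible with the commutators and the `p`-th powers extends to the whole groups. -/
theorem exists_extension : ∃ F : E₁ ≃* E₂,
    (∀ q : (commHom₂ hc₁ x₁ y₁).ker, F q = f q) ∧ F x₁ = x₂ ∧ F y₁ = y₂ := by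
  have hfst : Function.Bijective (Prod.fst ∘ (extGraph hc₁ hc₂ x₁ y₁ x₂ y₂ f hz).subtype) := by
    constructor
    · have : Function.Injective
          ((MonoidHom.fst E₁ E₂).comp (extGraph hc₁ hc₂ x₁ y₁ x₂ y₂ f hz).subtype) := by
        rw [injective_iff_map_eq_one]
        rintro ⟨w, i, k, q, rfl⟩ h1
        have h1' : y₁ ^ i * x₁ ^ k * q = 1 := h1
        obtain ⟨⟨s, rfl⟩, ⟨t, rfl⟩⟩ := dvd_of_decomp_eq_one hc₁ hZ₁ x₁ y₁ hxy₁ i k q q.2 h1'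
        have hXm : x₁ ^ p ∈ (commHom₂ hc₁ x₁ y₁).ker :=
          center_le_ker hc₁ x₁ y₁ (pow_p_mem_center hc₁ hZ₁ x₁)
        have hYm : y₁ ^ p ∈ (commHom₂ hc₁ x₁ y₁).ker :=
          center_le_ker hc₁ x₁ y₁ (pow_p_mem_center hc₁ hZ₁ y₁)
        have hq : q = ((⟨y₁ ^ p, hYm⟩ : (commHom₂ hc₁ x₁ y₁).ker) ^ s * ⟨x₁ ^ p, hXm⟩ ^ t)⁻¹ := by
          apply Subtype.ext
          have := eq_inv_of_mul_eq_one_right h1'
          rw [this]
          simp [zpow_mul]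
        apply Subtype.ext
        apply Prod.ext
        · exact h1'
        · show y₂ ^ ((p : ℤ) * s) * x₂ ^ ((p : ℤ) * t) * f q = 1
          rw [hq, map_inv, map_mul, map_zpow, map_zpow]
          have e1 := hx ⟨x₁ ^ p, hXm⟩ rfl
          have e2 := hy ⟨y₁ ^ p, hYm⟩ rfl
          simp [e1, e2, zpow_mul]
      exact this
    · intro g
      obtain ⟨i, k, q, hq, rfl⟩ := exists_decomp hc₁ hZ₁ x₁ y₁ hxy₁ g
      exact ⟨⟨(y₁ ^ i * x₁ ^ k * q, y₂ ^ i * x₂ ^ k * f ⟨q, hq⟩), i, k, ⟨q, hq⟩, rfl⟩, rfl⟩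
  have hsnd : Function.Bijective (Prod.snd ∘ (extGraph hc₁ hc₂ x₁ y₁ x₂ y₂ f hz).subtype) := by
    rw [Nat.bijective_iff_surjective_and_card]
    constructor
    · intro g
      obtain ⟨i, k, q, hq, rfl⟩ := exists_decomp hc₂ hZ₂ x₂ y₂ hxy₂ g
      refine ⟨⟨(y₁ ^ i * x₁ ^ k * f.symm ⟨q, hq⟩, y₂ ^ i * x₂ ^ k * f (f.symm ⟨q, hq⟩)), i, k,
        f.symm ⟨q, hq⟩, rfl⟩, ?_⟩
      simp
    · rw [Nat.card_congr (Equiv.ofBijective _ hfst), card_eq_sq_mul_card_ker hc₁ hZ₁ x₁ y₁ hxy₁,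
        card_eq_sq_mul_card_ker hc₂ hZ₂ x₂ y₂ hxy₂, Nat.card_congr f.toEquiv]
  obtain ⟨e, he⟩ := Subgroup.exists_mulEquiv_eq_graph hfst hsnd
  refine ⟨e, ?_, ?_, ?_⟩
  · intro q
    have : ((q : E₁), (f q : E₂)) ∈ extGraph hc₁ hc₂ x₁ y₁ x₂ y₂ f hz :=
      ⟨0, 0, q, Prod.ext (by simp) (by simp)⟩
    rw [he] at this
    exact this
  · have : (x₁, x₂) ∈ extGraph hc₁ hc₂ x₁ y₁ x₂ y₂ f hz :=
      ⟨0, 1, 1, Prod.ext (by simp) (by simp)⟩
    rw [he] at this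
    exact this
  · have : (y₁, y₂) ∈ extGraph hc₁ hc₂ x₁ y₁ x₂ y₂ f hz :=
      ⟨1, 0, 1, Prod.ext (by simp) (by simp)⟩
    rw [he] at this
    exact this

end Extension

end Cfsg.Agent.Lib.Helper3
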