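import Cfsg.Agent.Lib.Helper2.TateExt

set_option autoImplicit false

namespace Cfsg.Agent.Lib.Helper3

open Subgroup Cfsg.Agent.Lib.Helper2

open scoped commutatorElement IsMulCommutative in
/-- The kernel `K₀` of the twisted transfer `P → Z(P/[Q,P])`, `Q = K ∩ P`, `O^p(K) = K ⊴ G`:
`P' ≤ K₀`, `K₀ Q = P`, `K₀ ∩ Q ≤ [Q, P]`. -/
theorem exists_tate_kernel {G : Type*} [Group G] [Finite G] {p : ℕ} [Fact p.Prime] (P : Sylow p G)
    (K : Subgroup G) [K.Normal] (hK : Cfsg.pResidual p K = ⊤) :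
    ∃ K₀ : Subgroup (P : Subgroup G), commutator (P : Subgroup G) ≤ K₀ ∧
      K₀ ⊔ K.subgroupOf (P : Subgroup G) = ⊤ ∧
      K₀ ⊓ K.subgroupOf (P : Subgroup G) ≤
        ⁅K.subgroupOf (P : Subgroup G), (⊤ : Subgroup (P : Subgroup G))⁆ := by
  have hp : p.Prime := Fact.out
  have hnil : Group.IsNilpotent (P : Subgroup G) := P.2.isNilpotent
  set Q' : Subgroup (P : Subgroup G) := K.subgroupOf (P : Subgroup G) with hQ'
  set M' : Subgroup (P : Subgroup G) := ⁅Q', (⊤ : Subgroup (P : Subgroup G))⁆ with hM'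
  have hM'n : M'.Normal := by rw [hM']; infer_instance
  set Qk : Subgroup K := (P : Subgroup G).subgroupOf K with hQk
  -- inclusion of `Qk` in `P`
  obtain ⟨ι, hι⟩ : ∃ ι : Qk →* (P : Subgroup G), ∀ q : Qk, ((ι q : (P : Subgroup G)) : G) = q.1.1 :=
    ⟨((K.subtype).comp Qk.subtype).codRestrict (P : Subgroup G) (fun q => q.2), fun _ => rfl⟩
  have hιQ : ∀ q : Qk, ι q ∈ Q' := by
    intro q
    rw [hQ', mem_subgroupOf, hι]
    exact q.1.2
  have hcent : ∀ q : Qk, (QuotientGroup.mk' M' (ι q)) ∈ center ((P : Subgroup G) ⧸ M') := by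
    intro q
    rw [mem_center_iff]
    intro b
    obtain ⟨u, rfl⟩ := QuotientGroup.mk'_surjective M' b
    rw [← map_mul, ← map_mul]
    apply (QuotientGroup.eq).mpr
    have : (u * ι q)⁻¹ * (ι q * u) = ⁅(ι q)⁻¹, u⁻¹⁆ := by
      rw [commutatorElement_def]; group
    rw [this]
    exact commutator_mem_commutator (inv_mem (hιQ q)) (mem_top _)
  obtain ⟨ϕ, hϕ⟩ : ∃ ϕ : Qk →* center ((P : Subgroup G) ⧸ M'),
      ∀ q, ((ϕ q : center ((P : Subgroup G) ⧸ M')) : (P : Subgroup G) ⧸ M') =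
        QuotientGroup.mk' M' (ι q) :=
    ⟨((QuotientGroup.mk' M').comp ι).codRestrict _ hcent, fun _ => rfl⟩
  obtain ⟨c, hc⟩ : ∃ c : (P : Subgroup G) →* MulAut K, ∀ (u : (P : Subgroup G)) (k : K),
      ((c u k : K) : G) = u * k * (u : G)⁻¹ :=
    ⟨(MulAut.conjNormal).comp (P : Subgroup G).subtype, fun _ _ => rfl⟩
  have hcQ : ∀ u, ∀ q ∈ Qk, c u q ∈ Qk := by
    intro u q hq
    rw [hQk, mem_subgroupOf, hc]
    exact mul_mem (mul_mem u.2 hq) (inv_mem u.2)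
  have hϕc : ∀ u (q : Qk), ϕ ⟨c u q, hcQ u q q.2⟩ = ϕ q := by
    intro u q
    apply Subtype.ext
    rw [hϕ, hϕ]
    have e : ι ⟨c u q, hcQ u q q.2⟩ = u * ι q * u⁻¹ := by
      apply Subtype.ext
      rw [hι, coe_mul, coe_mul, hι, coe_inv]
      exact hc u q
    rw [e, map_mul, map_mul, map_inv]
    have := mem_center_iff.mp (hcent q) (QuotientGroup.mk' M' u)
    rw [this, mul_inv_cancel_right]
  obtain ⟨W, Wrange, Wmul, Wq⟩ := exists_twisted_transfer (A := center ((P : Subgroup G) ⧸ M')) Qk c hcQ ϕ hϕc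
  have hA : IsPGroup p (center ((P : Subgroup G) ⧸ M')) := (P.2.to_quotient M').to_subgroup _
  have hV : ∀ x, W x 1 = 1 := by
    let V : K →* center ((P : Subgroup G) ⧸ M') :=
      MonoidHom.mk' (fun x => W x 1) (by intro x x'; rw [Wmul]; simp)
    have hle := pResidual_le_ker_of_isPGroup V hA
    rw [hK] at hle
    intro x
    exact hle (mem_top x)
  have hW : ∀ x u, W x u = W 1 u := by
    intro x u
    have := Wmul x 1 1 u
    rw [hV, one_mul] at this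
    rw [this]
    simp
  obtain ⟨Ψ, hΨ⟩ : ∃ Ψ : (P : Subgroup G) →* center ((P : Subgroup G) ⧸ M'), ∀ u, Ψ u = W 1 u :=
    ⟨MonoidHom.mk' (fun u => W 1 u) (by intro u u'; rw [Wmul]; simp), fun _ => rfl⟩
  have hnd : ¬ p ∣ Qk.index := (sylowInfNormal P K).not_dvd_index
  obtain ⟨k, hk⟩ := hA.exists_card_eq
  have hcop : (Nat.card (center ((P : Subgroup G) ⧸ M'))).Coprime Qk.index := by
    rw [hk]
    exact Nat.Coprime.pow_left k ((Nat.Prime.coprime_iff_not_dvd hp).2 hnd)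
  obtain ⟨a, ha⟩ := exists_zpow_inverse hcop
  have hΨι : ∀ q : Qk, Ψ (ι q) = (ϕ q⁻¹) ^ Qk.index := by
    intro q
    have := Wq q (ι q) (fun k => by
      apply Subtype.ext
      rw [hc, hι]
      rfl)
    rw [hW] at this
    rw [hΨ, this]
  have hsup : Ψ.ker ⊔ Q' = ⊤ := by
    rw [eq_top_iff]
    intro u _
    obtain ⟨q0, hq0⟩ := Wrange 1 u
    have e : Ψ (ι (q0 ^ (-a))) = Ψ u := by
      rw [hΨι, hΨ, ← hq0, zpow_neg, inv_inv, map_zpow, ← zpow_natCast, ← zpow_mul, mul_comm,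
        zpow_mul, zpow_natCast, ha]
    have e2 : u = (u * (ι (q0 ^ (-a)))⁻¹) * ι (q0 ^ (-a)) := by group
    rw [e2]
    exact mul_mem (mem_sup_left (MonoidHom.mem_ker.mpr (by
      rw [map_mul, map_inv, e, mul_inv_cancel]))) (mem_sup_right (hιQ _))
  refine ⟨Ψ.ker, Abelianization.commutator_subset_ker Ψ, hsup, ?_⟩
  rintro x ⟨hxk, hx⟩
  have hxK : (x : G) ∈ K := hx
  have hq : ι ⟨⟨x.1, hxK⟩, x.2⟩ = x := Subtype.ext (hι _)
  have h1 : Ψ x = 1 := hxk
  rw [← hq, hΨι] at h1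
  have h2 := ha (ϕ (⟨⟨x.1, hxK⟩, x.2⟩ : Qk)⁻¹)
  rw [h1, one_zpow, map_inv, eq_comm, inv_eq_one] at h2
  have h3 := hϕ ⟨⟨x.1, hxK⟩, x.2⟩
  rw [h2, hq] at h3
  exact (QuotientGroup.eq_one_iff x).mp h3.symm

/-- In a nilpotent group, `M ≤ N [M, H]` with `N` normal forces `M ≤ N`. -/
theorem le_of_le_sup_commutator_top {H : Type*} [Group H] [Group.IsNilpotent H] (M N : Subgroup H)
    [N.Normal] (h : M ≤ N ⊔ ⁅M, (⊤ : Subgroup H)⁆) : M ≤ N := by
  have h1 : M.map (QuotientGroup.mk' N) = ⊥ := by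
    apply eq_bot_of_le_commutator_top
    have h2 := Subgroup.map_mono (f := QuotientGroup.mk' N) h
    rw [Subgroup.map_sup, QuotientGroup.map_mk'_self, bot_sup_eq, Subgroup.map_commutator] at h2
    exact h2.trans (Subgroup.commutator_mono le_rfl le_top)
  rw [Subgroup.map_eq_bot_iff, QuotientGroup.ker_mk'] at h1
  exact h1

/-- **Tate's theorem**, general form: `K ⊴ G`, `O^p(K) = K`, `U ⊴ P`, `U ≤ K ∩ P ≤ U Φ(P)`
implies `K ∩ P = U`. -/
theorem tate_general {G : Type*} [Group G] [Finite G] {p : ℕ} [Fact p.Prime] (P : Sylow p G)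
    (K : Subgroup G) [K.Normal] (hK : Cfsg.pResidual p K = ⊤) (U : Subgroup (P : Subgroup G))
    [U.Normal] (hU : U ≤ K.subgroupOf (P : Subgroup G))
    (h : K.subgroupOf (P : Subgroup G) ≤ U ⊔ frattini (P : Subgroup G)) :
    K.subgroupOf (P : Subgroup G) = U := by
  have hnil : Group.IsNilpotent (P : Subgroup G) := P.2.isNilpotent
  obtain ⟨K₀, hK₀, hsup, hinf⟩ := exists_tate_kernel P K hK
  have hX : K₀ ⊔ U = ⊤ := by
    apply frattini_nongenerating
    rw [eq_top_iff, ← hsup, sup_assoc]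
    exact sup_le_sup_left h _
  apply le_antisymm _ hU
  apply le_of_le_sup_commutator_top
  intro x hx
  have hx' : x ∈ K₀ ⊔ U := by rw [hX]; trivial
  rw [← SetLike.mem_coe, Subgroup.mul_normal] at hx'
  obtain ⟨k, hk, u, hu, rfl⟩ := hx'
  have hkQ : k ∈ K.subgroupOf (P : Subgroup G) := by
    have := mul_mem hx (inv_mem (hU hu))
    simpa using this
  rw [sup_comm]
  exact mul_mem (mem_sup_left (hinf ⟨hk, hkQ⟩)) (mem_sup_right hu)

end Cfsg.Agent.Lib.Helper3
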