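import Cfsg.Agent.Lib.Helper3.TateGen
import Cfsg.Agent.Lib.Helper3.PGroup
import Cfsg.Prelude.Def_BaumannBlocks

set_option autoImplicit false

namespace Cfsg.Agent.Lib.Helper3

open Subgroup Cfsg.Agent.Lib.Helper2
open scoped commutatorElement

/-- `X' ≤ O^p(X) Q'` for a Sylow `p`-subgroup `Q` of `X`. -/
theorem commutator_le_pResidual_sup {X : Type*} [Group X] [Finite X] {p : ℕ} [Fact p.Prime]
    (Q : Sylow p X) :
    commutator X ≤ Cfsg.pResidual p X ⊔ ⁅(Q : Subgroup X), (Q : Subgroup X)⁆ := by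
  rw [commutator_def, Subgroup.commutator_le]
  intro g₁ _ g₂ _
  obtain ⟨w₁, hw₁, y₁, hy₁, rfl⟩ := exists_mul_of_sylow_pResidual Q g₁
  obtain ⟨w₂, hw₂, y₂, hy₂, rfl⟩ := exists_mul_of_sylow_pResidual Q g₂
  have h1 : ⁅w₁ * y₁, w₂ * y₂⁆ * ⁅y₁, y₂⁆⁻¹ ∈ Cfsg.pResidual p X := by
    rw [← QuotientGroup.eq_one_iff]
    have e1 : ((w₁ : X) : X ⧸ Cfsg.pResidual p X) = 1 := (QuotientGroup.eq_one_iff _).2 hw₁
    have e2 : ((w₂ : X) : X ⧸ Cfsg.pResidual p X) = 1 := (QuotientGroup.eq_one_iff _).2 hw₂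
    simp only [commutatorElement_def, QuotientGroup.mk_mul, QuotientGroup.mk_inv, e1, e2, one_mul]
    group
  have h2 : ⁅w₁ * y₁, w₂ * y₂⁆ = (⁅w₁ * y₁, w₂ * y₂⁆ * ⁅y₁, y₂⁆⁻¹) * ⁅y₁, y₂⁆ := by group
  rw [h2]
  exact mul_mem (mem_sup_left h1) (mem_sup_right (commutator_mem_commutator hy₁ hy₂))

/-- `P ∩ O^p(G) ≤ G'`. -/
theorem sylow_inf_pResidual_le_commutator {G : Type*} [Group G] [Finite G] {p : ℕ} [Fact p.Prime]
    (P : Sylow p G) : (P : Subgroup G) ⊓ Cfsg.pResidual p G ≤ commutator G := by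
  rintro x ⟨hxP, hxO⟩
  have h1 := sylow_le_commutator_of_pResidual_eq_top (pResidual_pResidual (G := G) p)
    (sylowInfNormal P (Cfsg.pResidual p G))
  have h2 : (⟨x, hxO⟩ : Cfsg.pResidual p G) ∈ commutator (Cfsg.pResidual p G) := h1 hxP
  have h3 : x ∈ (commutator (Cfsg.pResidual p G)).map (Cfsg.pResidual p G).subtype :=
    ⟨_, h2, rfl⟩
  rw [Subgroup.map_subtype_commutator] at h3
  rw [commutator_def]
  exact Subgroup.commutator_mono le_top le_top h3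

/-- **Tate**: if `P ≤ H ≤ G` and `P ∩ G' ≤ H'` then `O^p(H) = O^p(G) ∩ H`. -/
theorem pResidualOf_eq_of_focal_le {G : Type*} [Group G] [Finite G] {p : ℕ} [Fact p.Prime]
    (P : Sylow p G) (H : Subgroup G) (hPH : (P : Subgroup G) ≤ H)
    (hfoc : (P : Subgroup G) ⊓ commutator G ≤ ⁅H, H⁆) :
    Cfsg.pResidualOf p H = Cfsg.pResidual p G ⊓ H := by
  have hOHle : Cfsg.pResidualOf p H ≤ Cfsg.pResidual p G := map_pResidual_subtype_le p H
  have hOHH : Cfsg.pResidualOf p H ≤ H := by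
    rintro _ ⟨y, -, rfl⟩
    exact y.2
  have hconj : ∀ h ∈ H, ∀ x ∈ Cfsg.pResidualOf p H, h * x * h⁻¹ ∈ Cfsg.pResidualOf p H := by
    rintro h hh _ ⟨y, hy, rfl⟩
    exact ⟨⟨h, hh⟩ * y * ⟨h, hh⟩⁻¹, (pResidual_normal (G := H) p).conj_mem y hy _, rfl⟩
  have hUn : ((Cfsg.pResidualOf p H).subgroupOf (P : Subgroup G)).Normal := by
    constructor
    intro n hn g
    exact hconj g (hPH g.2) n hn
  -- decomposition of `P ∩ H'`
  have hdec : ∀ x ∈ (P : Subgroup G), x ∈ ⁅H, H⁆ →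
      ∃ w ∈ Cfsg.pResidualOf p H, ∃ c ∈ ⁅(P : Subgroup G), (P : Subgroup G)⁆, x = w * c := by
    intro x hxP hxH
    rw [← Subgroup.map_subtype_commutator] at hxH
    obtain ⟨x', hx', rfl⟩ := hxH
    have h1 := commutator_le_pResidual_sup (P.subtype hPH) hx'
    rw [← SetLike.mem_coe, Subgroup.normal_mul] at h1
    obtain ⟨w, hw, c, hc, rfl⟩ := h1
    refine ⟨w, ⟨w, hw, rfl⟩, c, ?_, rfl⟩
    have h2 : (c : G) ∈ (⁅((P.subtype hPH : Sylow p H) : Subgroup H),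
        ((P.subtype hPH : Sylow p H) : Subgroup H)⁆).map H.subtype := ⟨c, hc, rfl⟩
    rw [Subgroup.map_commutator, Sylow.coe_subtype, Subgroup.map_subgroupOf_eq_of_le hPH] at h2
    exact h2
  have hT := tate_general P (Cfsg.pResidual p G) (pResidual_pResidual p)
    ((Cfsg.pResidualOf p H).subgroupOf (P : Subgroup G))
    (fun x hx => hOHle hx) (by
      intro x hx
      have hxG : (x : G) ∈ commutator G := sylow_inf_pResidual_le_commutator P ⟨x.2, hx⟩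
      obtain ⟨w, hw, c, hc, hxwc⟩ := hdec x x.2 (hfoc ⟨x.2, hxG⟩)
      rw [← Subgroup.map_subtype_commutator] at hc
      obtain ⟨c', hc', rfl⟩ := hc
      have hwP : w ∈ (P : Subgroup G) := by
        have : w = x * (c' : G)⁻¹ := by rw [hxwc]; simp
        rw [this]
        exact mul_mem x.2 (inv_mem c'.2)
      have hx2 : x = ⟨w, hwP⟩ * c' := Subtype.ext hxwc
      rw [hx2]
      exact mul_mem (mem_sup_left hw) (mem_sup_right (commutator_le_frattini P.2 hc')))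
  apply le_antisymm (le_inf hOHle hOHH)
  rintro y ⟨hyO, hyH⟩
  obtain ⟨w, hw, a, ha, hy⟩ := exists_mul_of_sylow_pResidual (P.subtype hPH) (⟨y, hyH⟩ : H)
  have hwO : (w : G) ∈ Cfsg.pResidualOf p H := ⟨w, hw, rfl⟩
  have hy' : y = (w : G) * (a : G) := congrArg Subtype.val hy
  have haP : (a : G) ∈ (P : Subgroup G) := ha
  have haO : (a : G) ∈ Cfsg.pResidual p G := by
    have : (a : G) = (w : G)⁻¹ * y := by rw [hy']; group
    rw [this]
    exact mul_mem (inv_mem (hOHle hwO)) hyO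
  have haU : (⟨a, haP⟩ : (P : Subgroup G)) ∈
      (Cfsg.pResidualOf p H).subgroupOf (P : Subgroup G) := by
    rw [← hT]
    exact haO
  rw [hy']
  exact mul_mem hwO haU

end Cfsg.Agent.Lib.Helper3
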